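import Mathlib

/-!
# Elements of primitive prime order and their eigenvalues

`F` has `q` elements, `n = #ι`, `r` is a prime not dividing `q` nor `q ^ i - 1` for `0 < i < n`.

* `no_fix` : an `r`-element of `GL ι F` fixing a non-zero vector is trivial.
* `spec_eq` : the eigenvalues of an element of order divisible by `r` are the conjugates of one of them.
* `order_eq` : the order of an eigenvalue is the order of the element.
* `conj_pow` : if `A ^ j` is conjugate to `a • A ^ k` then `μ ^ j = a μ ^ (k q ^ i)`.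
-/

set_option autoImplicit false
set_option linter.unusedSectionVars false

namespace Cfsg.Agent.H107.DZ

open Matrix Polynomial

section NoFix

variable {F : Type*} [Field F] [Fintype F] {ι : Type*} [Fintype ι] [DecidableEq ι]

/-- action on vectors -/
@[reducible] noncomputable def actV (F : Type*) [Field F] (ι : Type*) [Fintype ι] [DecidableEq ι] :
    MulAction (GL ι F) (ι → F) where
  smul g v := (g : Matrix ι ι F) *ᵥ v
  one_smul v := by
    show ((1 : GL ι F) : Matrix ι ι F) *ᵥ v = v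
    rw [Units.val_one, Matrix.one_mulVec]
  mul_smul g h v := by
    show ((g * h : GL ι F) : Matrix ι ι F) *ᵥ v = (g : Matrix ι ι F) *ᵥ ((h : Matrix ι ι F) *ᵥ v)
    rw [Units.val_mul, Matrix.mulVec_mulVec]

theorem card_fix_modEq {r : ℕ} [hr : Fact r.Prime] {A : GL ι F} {k : ℕ} (hA : A ^ r ^ k = 1) :
    Fintype.card F ^ Fintype.card ι ≡ Nat.card {v : ι → F // (A : Matrix ι ι F) *ᵥ v = v} [MOD r] := by
  classical
  let _ := actV F ι
  have hG : IsPGroup r (Subgroup.zpowers A) := by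
    refine IsPGroup.of_card (n := (Nat.card (Subgroup.zpowers A)).factorization r) ?_
    obtain ⟨j, -, hj⟩ := (Nat.dvd_prime_pow hr.out).1 (orderOf_dvd_of_pow_eq_one hA)
    rw [Nat.card_zpowers, hj, hr.out.factorization_pow, Finsupp.single_eq_same]
  have h1 := hG.card_modEq_card_fixedPoints (α := ι → F)
  rw [Nat.card_eq_fintype_card (α := ι → F), Fintype.card_fun] at h1
  refine h1.trans ?_
  have h2 : Nat.card (MulAction.fixedPoints (Subgroup.zpowers A) (ι → F)) =
      Nat.card {v : ι → F // (A : Matrix ι ι F) *ᵥ v = v} := by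
    refine Nat.card_congr (Equiv.subtypeEquivRight fun v => ?_)
    constructor
    · intro h
      exact h ⟨A, Subgroup.mem_zpowers A⟩
    · rintro h ⟨g, hg⟩
      obtain ⟨j, rfl⟩ := Subgroup.mem_zpowers_iff.1 hg
      have h3 : A ∈ MulAction.stabilizer (GL ι F) v := h
      exact zpow_mem h3 j
  rw [h2]

theorem no_fix {r : ℕ} [hr : Fact r.Prime]
    (hp : ∀ i, 0 < i → i < Fintype.card ι → ¬ r ∣ Fintype.card F ^ i - 1) (hq : ¬ r ∣ Fintype.card F)
    {A : GL ι F} {k : ℕ} (hA : A ^ r ^ k = 1) {v : ι → F} (hv : v ≠ 0)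
    (hAv : (A : Matrix ι ι F) *ᵥ v = v) : A = 1 := by
  classical
  let W : Submodule F (ι → F) := LinearMap.ker (Matrix.toLin' ((A : Matrix ι ι F) - 1))
  have hW : ∀ u, u ∈ W ↔ (A : Matrix ι ι F) *ᵥ u = u := by
    intro u
    rw [LinearMap.mem_ker, Matrix.toLin'_apply, Matrix.sub_mulVec, Matrix.one_mulVec, sub_eq_zero]
  have h1 := card_fix_modEq hA
  have h2 : Nat.card {v : ι → F // (A : Matrix ι ι F) *ᵥ v = v} = Fintype.card F ^ Module.finrank F W := by
    rw [← Nat.card_eq_fintype_card (α := F), ← Module.natCard_eq_pow_finrank (K := F) (V := W)]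
    exact Nat.card_congr (Equiv.subtypeEquivRight fun u => (hW u).symm)
  rw [h2] at h1
  have hle : Module.finrank F W ≤ Fintype.card ι := by
    have := Submodule.finrank_le W
    rwa [Module.finrank_fintype_fun_eq_card] at this
  have hpos : 0 < Module.finrank F W := by
    rw [Module.finrank_pos_iff]
    exact ⟨⟨v, (hW v).2 hAv⟩, 0, fun h => hv (congrArg Subtype.val h)⟩
  rcases Nat.eq_or_lt_of_le hle with h | h
  · have hT : W = ⊤ := by
      apply Submodule.eq_top_of_finrank_eq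
      rw [h, Module.finrank_fintype_fun_eq_card]
    apply Units.ext
    rw [Units.val_one]
    ext i j
    have h3 : (Pi.single j 1 : ι → F) ∈ W := by rw [hT]; trivial
    have h4 := congrFun ((hW _).1 h3) i
    rw [Matrix.mulVec_single_one, Matrix.col_apply] at h4
    rw [h4, Matrix.one_apply, Pi.single_apply]
  · exfalso
    set a := Module.finrank F W with ha
    obtain ⟨b, hb⟩ : ∃ b, Fintype.card ι = a + b := ⟨Fintype.card ι - a, by omega⟩
    rw [hb, pow_add] at h1
    have h3 : Fintype.card F ^ b ≡ 1 [MOD r] := by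
      have hc : Nat.Coprime r (Fintype.card F ^ a) :=
        Nat.Coprime.pow_right _ ((Nat.Prime.coprime_iff_not_dvd hr.out).2 hq)
      refine Nat.ModEq.cancel_left_of_coprime hc ?_
      rw [mul_one]
      exact h1
    have h4 : r ∣ Fintype.card F ^ b - 1 :=
      (Nat.modEq_iff_dvd' (Nat.one_le_pow _ _ Fintype.card_pos)).1 h3.symm
    exact hp b (by omega) (by omega) h4

end NoFix

section Spec

variable {F : Type*} [Field F] [Fintype F] {ι : Type*} [Fintype ι] [DecidableEq ι]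
  {K : Type*} [Field K] [IsAlgClosed K] [Algebra F K]

/-- the matrix over the algebraically closed field -/
abbrev ext (K : Type*) [Field K] [Algebra F K] (A : GL ι F) : Matrix ι ι K :=
  (A : Matrix ι ι F).map (algebraMap F K)

theorem mem_spec {A : GL ι F} {μ : K} :
    μ ∈ spectrum K (ext K A) ↔ aeval μ (A : Matrix ι ι F).charpoly = 0 := by
  rw [Matrix.mem_spectrum_iff_isRoot_charpoly, ext, Matrix.charpoly_map, IsRoot.def, eval_map, aeval_def]

theorem frob_mem {A : GL ι F} {μ : K} (h : μ ∈ spectrum K (ext K A)) (i : ℕ) :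
    μ ^ Fintype.card F ^ i ∈ spectrum K (ext K A) := by
  induction i with
  | zero => rwa [pow_zero, pow_one]
  | succ i ih =>
    rw [mem_spec] at ih ⊢
    have h1 := FiniteField.expand_card (K := F) (A : Matrix ι ι F).charpoly
    have h2 := congrArg (aeval (μ ^ Fintype.card F ^ i)) h1
    rw [expand_aeval, map_pow, ih, zero_pow Fintype.card_ne_zero] at h2
    rw [pow_succ, pow_mul]
    exact h2

theorem pow_mem {A : GL ι F} {μ : K} (h : μ ∈ spectrum K (ext K A)) (j : ℕ) :
    μ ^ j ∈ spectrum K (ext K (A ^ j)) := by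
  have h1 : ext K (A ^ j) = ext K A ^ j := by
    unfold ext
    rw [Units.val_pow_eq_pow_val, Matrix.map_pow]
  rw [h1, spectrum.map_pow_of_nonempty ⟨μ, h⟩]
  exact ⟨μ, h, rfl⟩

theorem of_mem_pow [Nonempty ι] {A : GL ι F} {ν : K} {j : ℕ} (h : ν ∈ spectrum K (ext K (A ^ j))) :
    ∃ μ ∈ spectrum K (ext K A), ν = μ ^ j := by
  have h1 : ext K (A ^ j) = ext K A ^ j := by
    unfold ext
    rw [Units.val_pow_eq_pow_val, Matrix.map_pow]
  have hne : (spectrum K (ext K A)).Nonempty := spectrum.nonempty_of_isAlgClosed_of_finiteDimensional K _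
  rw [h1, spectrum.map_pow_of_nonempty hne] at h
  obtain ⟨μ, hμ, rfl⟩ := h
  exact ⟨μ, hμ, rfl⟩

theorem one_not_mem {B : GL ι F} (h : ∀ v : ι → F, (B : Matrix ι ι F) *ᵥ v = v → v = 0) :
    (1 : K) ∉ spectrum K (ext K B) := by
  rw [mem_spec]
  intro h1
  have h2 : (algebraMap F K) ((B : Matrix ι ι F).charpoly.eval 1) = 0 := by
    rw [← h1, aeval_def, ← (algebraMap F K).map_one, eval₂_at_apply]
  have h3 : (B : Matrix ι ι F).charpoly.eval 1 = 0 := (map_eq_zero _).1 h2
  rw [Matrix.eval_charpoly] at h3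
  obtain ⟨v, hv, hv0⟩ := Matrix.exists_mulVec_eq_zero_iff.2 h3
  apply hv
  apply h
  rw [Matrix.sub_mulVec, sub_eq_zero] at hv0
  rw [← hv0, map_one, Matrix.one_mulVec]

end Spec

section Main

variable {F : Type*} [Field F] [Fintype F] {ι : Type*} [Fintype ι] [DecidableEq ι]
  {K : Type*} [Field K] [IsAlgClosed K] [Algebra F K] {r : ℕ} [hr : Fact r.Prime]

theorem pow_ne_one (hp : ∀ i, 0 < i → i < Fintype.card ι → ¬ r ∣ Fintype.card F ^ i - 1)
    (hq : ¬ r ∣ Fintype.card F) {A : GL ι F} {N : ℕ} (hA : orderOf A = r * N) (hN : 0 < N) {μ : K}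
    (hμ : μ ∈ spectrum K (ext K A)) : μ ^ N ≠ 1 := by
  intro h
  have h1 := pow_mem hμ N
  rw [h] at h1
  refine one_not_mem (fun v hv => ?_) h1
  by_contra hv0
  have h2 : (A ^ N) ^ r ^ 1 = 1 := by rw [pow_one, ← pow_mul, mul_comm, ← hA, pow_orderOf_eq_one]
  have h3 := no_fix hp hq h2 hv0 hv
  have h4 := Nat.le_of_dvd hN (orderOf_dvd_of_pow_eq_one h3)
  rw [hA] at h4
  have := hr.out.two_le
  nlinarith

theorem pow_orderOf {A : GL ι F} {μ : K} (hμ : μ ∈ spectrum K (ext K A)) : μ ^ orderOf A = 1 := by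
  have h := pow_mem hμ (orderOf A)
  rw [pow_orderOf_eq_one, mem_spec, Units.val_one, Matrix.charpoly_one, map_pow, map_sub, map_one, aeval_X] at h
  exact sub_eq_zero.1 (IsReduced.eq_zero _ ⟨_, h⟩)

theorem root_pow (hp : ∀ i, 0 < i → i < Fintype.card ι → ¬ r ∣ Fintype.card F ^ i - 1)
    (hq : ¬ r ∣ Fintype.card F) {A : GL ι F} {N : ℕ} (hA : orderOf A = r * N) (hN : 0 < N) {μ : K}
    (hμ : μ ∈ spectrum K (ext K A)) : orderOf (μ ^ N) = r := by
  refine orderOf_eq_prime ?_ (pow_ne_one hp hq hA hN hμ)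
  rw [← pow_mul, mul_comm, ← hA]
  exact pow_orderOf hμ

theorem pow_inj_aux (hp : ∀ i, 0 < i → i < Fintype.card ι → ¬ r ∣ Fintype.card F ^ i - 1)
    (hq : ¬ r ∣ Fintype.card F) {A : GL ι F} {N : ℕ} (hA : orderOf A = r * N) (hN : 0 < N) {μ : K}
    (hμ : μ ∈ spectrum K (ext K A)) {i j : ℕ} (hij : i < j) (hj : j < Fintype.card ι)
    (h : μ ^ Fintype.card F ^ i = μ ^ Fintype.card F ^ j) : False := by
  have h1 : (μ ^ N) ^ Fintype.card F ^ i = (μ ^ N) ^ Fintype.card F ^ j := by
    rw [← pow_mul, ← pow_mul, mul_comm N, mul_comm N, pow_mul, pow_mul, h]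
  have hw0 : μ ^ N ≠ 0 := by
    intro h0
    have h2 := root_pow hp hq hA hN hμ
    rw [h0, orderOf_zero] at h2
    exact hr.out.pos.ne h2
  have h2 : Units.mk0 _ hw0 ^ Fintype.card F ^ i = Units.mk0 _ hw0 ^ Fintype.card F ^ j := Units.ext h1
  have ho : orderOf (Units.mk0 _ hw0) = r := by
    rw [← orderOf_units, Units.val_mk0, root_pow hp hq hA hN hμ]
  rw [pow_eq_pow_iff_modEq, ho] at h2
  replace h1 := h2
  obtain ⟨b, rfl⟩ := Nat.exists_eq_add_of_lt hij
  rw [show i + b + 1 = i + (b + 1) by ring, pow_add] at h1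
  have h3 : Fintype.card F ^ (b + 1) ≡ 1 [MOD r] := by
    have hc : Nat.Coprime r (Fintype.card F ^ i) :=
      Nat.Coprime.pow_right _ ((Nat.Prime.coprime_iff_not_dvd hr.out).2 hq)
    refine Nat.ModEq.cancel_left_of_coprime hc ?_
    rw [mul_one]
    exact h1.symm
  exact hp (b + 1) (by omega) (by omega)
    ((Nat.modEq_iff_dvd' (Nat.one_le_pow _ _ Fintype.card_pos)).1 h3.symm)

theorem injOn (hp : ∀ i, 0 < i → i < Fintype.card ι → ¬ r ∣ Fintype.card F ^ i - 1)
    (hq : ¬ r ∣ Fintype.card F) {A : GL ι F} {N : ℕ} (hA : orderOf A = r * N) (hN : 0 < N) {μ : K}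
    (hμ : μ ∈ spectrum K (ext K A)) {i j : ℕ} (hi : i < Fintype.card ι) (hj : j < Fintype.card ι)
    (h : μ ^ Fintype.card F ^ i = μ ^ Fintype.card F ^ j) : i = j := by
  rcases lt_trichotomy i j with h1 | h1 | h1
  · exact (pow_inj_aux hp hq hA hN hμ h1 hj h).elim
  · exact h1
  · exact (pow_inj_aux hp hq hA hN hμ h1 hi h.symm).elim

/-- the characteristic polynomial over `K` -/
theorem roots_eq (hp : ∀ i, 0 < i → i < Fintype.card ι → ¬ r ∣ Fintype.card F ^ i - 1)
    (hq : ¬ r ∣ Fintype.card F) {A : GL ι F} {N : ℕ} (hA : orderOf A = r * N) (hN : 0 < N) {μ : K}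
    (hμ : μ ∈ spectrum K (ext K A)) :
    (ext K A).charpoly.roots = (Multiset.range (Fintype.card ι)).map fun i => μ ^ Fintype.card F ^ i := by
  classical
  have hne : (ext K A).charpoly ≠ 0 := (Matrix.charpoly_monic _).ne_zero
  have hnd : ((Multiset.range (Fintype.card ι)).map fun i => μ ^ Fintype.card F ^ i).Nodup := by
    refine Multiset.Nodup.map_on ?_ (Multiset.nodup_range _)
    intro i hi j hj hij
    exact injOn hp hq hA hN hμ (Multiset.mem_range.1 hi) (Multiset.mem_range.1 hj) hij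
  symm
  refine Multiset.eq_of_le_of_card_le ?_ ?_
  · rw [Multiset.le_iff_subset hnd]
    intro ν hν
    obtain ⟨i, -, rfl⟩ := Multiset.mem_map.1 hν
    rw [mem_roots hne]
    exact (Matrix.mem_spectrum_iff_isRoot_charpoly).1 (frob_mem hμ i)
  · rw [Multiset.card_map, Multiset.card_range]
    refine (card_roots' _).trans ?_
    rw [Matrix.charpoly_natDegree_eq_dim]

theorem spec_eq (hp : ∀ i, 0 < i → i < Fintype.card ι → ¬ r ∣ Fintype.card F ^ i - 1)
    (hq : ¬ r ∣ Fintype.card F) {A : GL ι F} {N : ℕ} (hA : orderOf A = r * N) (hN : 0 < N) {μ ν : K}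
    (hμ : μ ∈ spectrum K (ext K A)) (hν : ν ∈ spectrum K (ext K A)) :
    ∃ i < Fintype.card ι, ν = μ ^ Fintype.card F ^ i := by
  have hne : (ext K A).charpoly ≠ 0 := (Matrix.charpoly_monic _).ne_zero
  have h1 := (mem_roots hne).2 ((Matrix.mem_spectrum_iff_isRoot_charpoly).1 hν)
  rw [roots_eq hp hq hA hN hμ] at h1
  obtain ⟨i, hi, rfl⟩ := Multiset.mem_map.1 h1
  exact ⟨i, Multiset.mem_range.1 hi, rfl⟩

theorem orderOf_eq (hp : ∀ i, 0 < i → i < Fintype.card ι → ¬ r ∣ Fintype.card F ^ i - 1)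
    (hq : ¬ r ∣ Fintype.card F) {A : GL ι F} {N : ℕ} (hA : orderOf A = r * N) (hN : 0 < N) {μ : K}
    (hμ : μ ∈ spectrum K (ext K A)) : orderOf μ = orderOf A := by
  classical
  apply Nat.dvd_antisymm (orderOf_dvd_of_pow_eq_one (pow_orderOf hμ))
  have hA0 : 0 < orderOf A := by rw [hA]; exact Nat.mul_pos hr.out.pos hN
  have hμ0 : 0 < orderOf μ := orderOf_pos_iff.2 (isOfFinOrder_iff_pow_eq_one.2 ⟨_, hA0, pow_orderOf hμ⟩)
  apply orderOf_dvd_of_pow_eq_one
  have hX : (X ^ orderOf μ - 1 : K[X]) ≠ 0 := by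
    have h0 := X_pow_sub_C_ne_zero hμ0 (1 : K)
    rwa [C_1] at h0
  have h1 : (ext K A).charpoly ∣ (X ^ orderOf μ - 1 : K[X]) := by
    have h2 := (IsAlgClosed.splits (ext K A).charpoly).eq_prod_roots_of_monic (Matrix.charpoly_monic _)
    rw [h2, Multiset.prod_X_sub_C_dvd_iff_le_roots hX, roots_eq hp hq hA hN hμ]
    have hnd : ((Multiset.range (Fintype.card ι)).map fun i => μ ^ Fintype.card F ^ i).Nodup := by
      refine Multiset.Nodup.map_on ?_ (Multiset.nodup_range _)
      intro i hi j hj hij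
      exact injOn hp hq hA hN hμ (Multiset.mem_range.1 hi) (Multiset.mem_range.1 hj) hij
    rw [Multiset.le_iff_subset hnd]
    intro ν hν
    obtain ⟨i, -, rfl⟩ := Multiset.mem_map.1 hν
    rw [mem_roots hX, IsRoot.def, eval_sub, eval_pow, eval_X, eval_one, ← pow_mul, mul_comm, pow_mul,
      pow_orderOf_eq_one, one_pow, sub_self]
  obtain ⟨g, hg⟩ := h1
  have h3 := congrArg (aeval (ext K A)) hg
  rw [map_mul, Matrix.aeval_self_charpoly, zero_mul, map_sub, map_pow, aeval_X, map_one, sub_eq_zero] at h3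
  apply Units.ext
  rw [Units.val_pow_eq_pow_val, Units.val_one]
  have h4 : ((A : Matrix ι ι F) ^ orderOf μ).map (algebraMap F K) = (1 : Matrix ι ι F).map (algebraMap F K) := by
    rw [Matrix.map_pow, Matrix.map_one _ (map_zero _) (map_one _)]
    exact h3
  exact Matrix.map_injective (algebraMap F K).injective h4

/-- if `A ^ j` is similar to `a • A ^ k` -/
theorem conj_pow (hp : ∀ i, 0 < i → i < Fintype.card ι → ¬ r ∣ Fintype.card F ^ i - 1)
    (hq : ¬ r ∣ Fintype.card F) {A : GL ι F} {N : ℕ} (hA : orderOf A = r * N) (hN : 0 < N) {μ : K}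
    (hμ : μ ∈ spectrum K (ext K A)) {j k : ℕ} {a : F} (ha : a ≠ 0) {u : GL ι F}
    (h : ((A ^ j : GL ι F) : Matrix ι ι F) = (u : Matrix ι ι F) * (a • ((A ^ k : GL ι F) : Matrix ι ι F)) *
      ((u⁻¹ : GL ι F) : Matrix ι ι F)) :
    ∃ i < Fintype.card ι, μ ^ j = algebraMap F K a * (μ ^ Fintype.card F ^ i) ^ k := by
  have hn : Nonempty ι := by
    by_contra hcon
    rw [not_nonempty_iff] at hcon
    have h1 : A = 1 := Subsingleton.elim _ _
    rw [h1, orderOf_one] at hA
    have := hr.out.two_le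
    have h2 : r ∣ 1 := Dvd.intro _ hA.symm
    exact hr.out.one_lt.ne' (Nat.dvd_one.1 h2)
  have h1 := pow_mem hμ j
  rw [mem_spec, h, Matrix.coe_units_inv, Matrix.charpoly_units_conj] at h1
  have ha' : algebraMap F K a ≠ 0 := fun h0 => ha ((map_eq_zero _).1 h0)
  -- `a⁻¹ μ ^ j` is an eigenvalue of `A ^ k`
  have h2 : (algebraMap F K a)⁻¹ * μ ^ j ∈ spectrum K (ext K (A ^ k)) := by
    have h3 : μ ^ j ∈ spectrum K ((a • ((A ^ k : GL ι F) : Matrix ι ι F)).map (algebraMap F K)) := by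
      rw [Matrix.mem_spectrum_iff_isRoot_charpoly, Matrix.charpoly_map, IsRoot.def, eval_map, ← aeval_def]
      exact h1
    have h4 : (a • ((A ^ k : GL ι F) : Matrix ι ι F)).map (algebraMap F K) =
        (Units.mk0 _ ha') • ext K (A ^ k) := by
      ext i j
      simp [ext, Units.smul_def]
    rw [h4] at h3
    have h5 : μ ^ j = (Units.mk0 _ ha' : Kˣ) • ((algebraMap F K a)⁻¹ * μ ^ j) := by
      rw [Units.smul_def, Units.val_mk0, smul_eq_mul, mul_inv_cancel_left₀ ha']
    rw [h5, spectrum.smul_mem_smul_iff] at h3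
    exact h3
  obtain ⟨ν, hν, h3⟩ := of_mem_pow h2
  obtain ⟨i, hi, rfl⟩ := spec_eq hp hq hA hN hμ hν
  refine ⟨i, hi, ?_⟩
  rw [← h3, mul_inv_cancel_left₀ ha']

end Main

end Cfsg.Agent.H107.DZ
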